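import Groth.Agent.Sga2lef.H24.ClosedHyp
import Groth.Agent.CohqB.FinAmple
import Groth.Agent.Ega3A.PChart
import Groth.Agent.Ega3B.ProjProper
import Groth.Agent.PerfB.TwistDer
import Groth.Agent.Fga.PicMon
import Groth.Agent.CohtopA.PushClosed
import Groth.Agent.CohqB.LocBaseHH
import Groth.Agent.Ega3B.PullTensor
import Groth.Prelude.Def_ClSub2
import Groth.Prelude.Def_LCI2

/-!
# From a relatively very ample module on `X` proper over `A` to `P^r_A`

`main`: the vanishing theorem for negative twists on all `P^r_A` implies the one on `X`.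
-/

set_option autoImplicit false
universe u

open CategoryTheory CategoryTheory.Limits AlgebraicGeometry TopologicalSpace IsLocalRing

namespace Groth.Agent.Sga2lef.H24.ToPn

open Groth.Agent.Fga.PicMon Groth.Agent.PerfB.TwistDer Groth.Agent.Ega3A.PChart
open Groth.Agent.CohqB.ProjBC ClosedHyp

/-- `i_*` for a closed immersion does not change cohomology. -/
theorem subsingleton_HH_of_pushforward {Z Y : Scheme.{u}} (i : Z ⟶ Y) [IsClosedImmersion i]
    (M : Z.Modules) (n : ℕ)
    (h : Subsingleton (Coh.HH Y ((Scheme.Modules.pushforward i).obj M) n)) :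
    Subsingleton (Coh.HH Z M n) := by
  have h1 := CohtopA.PushClosed.preservesFiniteColimits_push_of_isClosedEmbedding i.base
    i.isClosedEmbedding
  have e := CohtopA.PushClosed.HPushEquiv i.base (Coh.toAb M) n
  have h2 : Subsingleton (CohTop.H ((CohTop.push i.base).obj (Coh.toAb M)) n) := h
  exact e.toEquiv.subsingleton

/-- An inverse is unique up to isomorphism. -/
theorem nonempty_iso_of_inverse {X : Scheme.{u}} {L M N : X.Modules}
    (h1 : ClSub.IsInverseOf M L) (h2 : ClSub.IsInverseOf N L) : Nonempty (M ≅ N) := by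
  rw [← mc_eq_iff]
  have e1 : mc M * mc L = 1 := by
    rw [← mc_tensor, ← mc_one]
    exact (mc_eq_iff _ _).2 h1
  have e2 : mc N * mc L = 1 := by
    rw [← mc_tensor, ← mc_one]
    exact (mc_eq_iff _ _).2 h2
  calc mc M = mc M * (mc N * mc L) := by rw [e2, mul_one]
    _ = (mc M * mc L) * mc N := by rw [mul_comm (mc N), mul_assoc]
    _ = mc N := by rw [e1, one_mul]

theorem isInverseOf_congr {X : Scheme.{u}} {L L' M : X.Modules} (e : Nonempty (L ≅ L'))
    (h : ClSub.IsInverseOf M L) : ClSub.IsInverseOf M L' := by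
  have h1 : mc (CohB1.tensorMod M L) = mc (Coh.structureModule X) := (mc_eq_iff _ _).2 h
  have h2 : mc (CohB1.tensorMod M L') = mc (Coh.structureModule X) := by
    rw [mc_tensor, ← (mc_eq_iff _ _).2 e, ← mc_tensor, h1]
  exact (mc_eq_iff _ _).1 h2

theorem isInverseOf_tw (r : ℕ) (A : Type u) [CommRing A] :
    ClSub.IsInverseOf (tw r A (-1)) (tw r A 1) :=
  ⟨twMul r A (-1) 1 0 (by ring) ≪≫ (twZero r A).symm⟩

theorem nonempty_tensorPow_tw (r : ℕ) (A : Type u) [CommRing A] (m : ℕ) :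
    Nonempty (CohB1.tensorPow (tw r A (-1)) m ≅ tw r A (-(m : ℤ))) := by
  rw [← mc_eq_iff, mc_tensorPow]
  induction m with
  | zero =>
    rw [pow_zero, ← mc_one]
    exact mc_eq (by simpa using twZero r A)
  | succ m ih =>
    rw [pow_succ, ih, ← mc_tensor]
    exact mc_eq (twMul r A (-(m : ℤ)) (-1) _ (by push_cast; ring))

theorem isInverseOf_pullback {X Y : Scheme.{u}} (f : X ⟶ Y) {L M : Y.Modules}
    (hL : PicF.IsInvertible L) (hM : PicF.IsInvertible M) (h : ClSub.IsInverseOf M L) :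
    ClSub.IsInverseOf ((Scheme.Modules.pullback f).obj M) ((Scheme.Modules.pullback f).obj L) := by
  obtain ⟨e⟩ := h
  obtain ⟨u⟩ := Ega3B.PullTensor.nonempty_pullUnitIso f
  exact ⟨(Ega3B.PullTensor.pullTensorIso f hM hL).symm ≪≫ (Scheme.Modules.pullback f).mapIso e ≪≫ u⟩

theorem nonempty_iso_push {X : Scheme.{u}} {A : Type u} [CommRing A] {r : ℕ}
    (j : X ⟶ CohB1.ProjSpace r A) {L L' : X.Modules}
    (eL : Nonempty (L ≅ (Scheme.Modules.pullback j).obj (tw r A 1))) (hL' : ClSub.IsInverseOf L' L)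
    (F : X.Modules) (m : ℕ) :
    Nonempty ((twM r A (-(m : ℤ))).obj ((Scheme.Modules.pushforward j).obj F) ≅
      (Scheme.Modules.pushforward j).obj (CohB1.tensorMod F (CohB1.tensorPow L' m))) := by
  obtain ⟨e1⟩ := nonempty_iso_of_inverse (isInverseOf_congr eL hL')
    (isInverseOf_pullback j (isInvertible_tw r A 1) (isInvertible_tw r A (-1)) (isInverseOf_tw r A))
  have h2 : Nonempty (CohB1.tensorPow ((Scheme.Modules.pullback j).obj (tw r A (-1))) m ≅
      CohB1.tensorPow L' m) := by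
    rw [← mc_eq_iff, mc_tensorPow, mc_tensorPow, mc_eq e1]
  obtain ⟨e2⟩ := h2
  obtain ⟨e3⟩ := CohqB.FinAmple.nonempty_push_tw j (isInvertible_tw r A (-1)) F m
  obtain ⟨e4⟩ := nonempty_tensorPow_tw r A m
  let e5 : (twM r A (-(m : ℤ))).obj ((Scheme.Modules.pushforward j).obj F) ≅
      CohB1.tensorMod ((Scheme.Modules.pushforward j).obj F) (CohB1.tensorPow (tw r A (-1)) m) :=
    Ega2.Tens.mapTIso (Iso.refl _) e4.symm
  exact ⟨e5 ≪≫ e3 ≪≫ (Scheme.Modules.pushforward j).mapIso (Ega2.Tens.mapTIso (Iso.refl _) e2)⟩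

theorem exists_closedImmersion {A : Type u} [CommRing A] {X : Scheme.{u}}
    (f : X ⟶ Spec (CommRingCat.of A)) [IsProper f] (L : X.Modules)
    (hL : RelAmple.IsRelVeryAmplePn f L) :
    ∃ (r : ℕ) (j : X ⟶ CohB1.ProjSpace r A), IsClosedImmersion j ∧
      j ≫ CohB1.ProjSpace.toSpec r A = f ∧
      Nonempty (L ≅ (Scheme.Modules.pullback j).obj (tw r A 1)) := by
  obtain ⟨r, i, hi, hif, ⟨eL⟩⟩ := hL
  have hc : IsIso (chart r (𝟙 (Spec (CommRingCat.of A)))) :=
    (isPullback_chart r (𝟙 (Spec (CommRingCat.of A)))).isIso_fst_of_isIso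
  let j : X ⟶ CohB1.ProjSpace r A := i ≫ inv (chart r (𝟙 (Spec (CommRingCat.of A))))
  have hji : j ≫ chart r (𝟙 (Spec (CommRingCat.of A))) = i := by simp [j]
  have hjf : j ≫ CohB1.ProjSpace.toSpec r A = f := by
    have h1 := chart_toBase r (𝟙 (Spec (CommRingCat.of A)))
    rw [Category.comp_id] at h1
    rw [← h1, reassoc_of% hji]
    exact hif
  have hp : IsProper (j ≫ CohB1.ProjSpace.toSpec r A) := by rw [hjf]; infer_instance
  have hps := Ega3B.ProjProper.isProper_toSpec r A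
  have hjp : IsProper j := IsProper.of_comp j (CohB1.ProjSpace.toSpec r A)
  have hjpre : IsPreimmersion j := by
    have : IsPreimmersion i := inferInstance
    exact inferInstance
  refine ⟨r, j, IsClosedImmersion.of_isPreimmersion j j.isClosedMap.isClosed_range, hjf, ?_⟩
  exact ⟨eL ≪≫ (Scheme.Modules.pullbackCongr hji.symm).app _ ≪≫
    ((Scheme.Modules.pullbackComp j (chart r (𝟙 (Spec (CommRingCat.of A))))).app _).symm ≪≫
    (Scheme.Modules.pullback j).mapIso (chartTwistIso r (𝟙 (Spec (CommRingCat.of A))) 1)⟩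

/-- **Reduction to projective space.** -/
theorem main (A : Type u) [CommRing A] [IsNoetherianRing A] (n : ℕ)
    (core : ∀ (r : ℕ) (G : (CohB1.ProjSpace r A).Modules), Coh.IsCoh G →
      FlatMod.IsFlatOver (CohB1.ProjSpace.toSpec r A) G → Hyp (CohB1.ProjSpace.toSpec r A) G n →
      ∃ m₀ : ℤ, ∀ m : ℤ, m₀ ≤ m →
        Subsingleton (Coh.HH (CohB1.ProjSpace r A) ((twM r A (-m)).obj G) n))
    {X : Scheme.{u}} (f : X ⟶ Spec (CommRingCat.of A)) [IsProper f] (L L' : X.Modules)
    (hL : RelAmple.IsRelVeryAmplePn f L) (hL' : ClSub.IsInverseOf L' L) (F : X.Modules)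
    (hF : Coh.IsCoh F) (hflat : FlatMod.IsFlatOver f F) (hyp : Hyp f F n) :
    ∃ m₀ : ℕ, ∀ m : ℕ, m₀ ≤ m →
      Subsingleton (Coh.HH X (CohB1.tensorMod F (CohB1.tensorPow L' m)) n) := by
  obtain ⟨r, j, hj, rfl, eL⟩ := exists_closedImmersion f L hL
  have hps := Ega3B.ProjProper.isProper_toSpec r A
  have : IsLocallyNoetherian (CohB1.ProjSpace r A) :=
    LocallyOfFiniteType.isLocallyNoetherian (CohB1.ProjSpace.toSpec r A)
  have : IsLocallyNoetherian X :=
    LocallyOfFiniteType.isLocallyNoetherian j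
  obtain ⟨m₀, hm₀⟩ := core r ((Scheme.Modules.pushforward j).obj F) (CohqB.FinAmple.isCoh_push j hF)
    (isFlatOver_push j _ F hflat) (hyp_push j _ F n hyp)
  refine ⟨m₀.toNat, fun m hm => ?_⟩
  obtain ⟨e⟩ := nonempty_iso_push j eL hL' F m
  exact subsingleton_HH_of_pushforward j _ n
    (CohqB.LocBaseHH.subsingleton_of_iso e n (hm₀ m (by omega)))

end Groth.Agent.Sga2lef.H24.ToPn
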