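import Groth.Agent.Sga2lef.H24.FibH
import Groth.Prelude.Def_FlatMod2
import Groth.Prelude.Def_CInt

/-!
# Closed immersions `i : X → P` over `S`: transfer of hypotheses from `X` to `P`

* `isClosed_asFiber`: points of `X` whose image is closed in its fibre are closed in their fibre;
* `isFlatOver_push`: `i_* F` is flat over `S` if `F` is;
* `hyp_push`: vanishing of `H^n_𝔪` of the stalks of `F` on fibres of `X` at closed points of the fibres gives
  the same for `i_* F`.
-/

set_option autoImplicit false
universe u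

open CategoryTheory CategoryTheory.Limits AlgebraicGeometry TopologicalSpace IsLocalRing

namespace Groth.Agent.Sga2lef.H24.ClosedHyp

open Groth.Agent.CycB.PushStalk FibH

variable {X P S : Scheme.{u}} (i : X ⟶ P) [IsClosedImmersion i] (p : P ⟶ S)

omit [IsClosedImmersion i] in
theorem fiberMap_fiberι (s : S) :
    CInt.fiberMap i p s ≫ p.fiberι s = (i ≫ p).fiberι s ≫ i :=
  pullback.lift_fst _ _ _

omit [IsClosedImmersion i] in
theorem fiberMap_apply (s : S) (y : (i ≫ p).fiber s) :
    p.fiberι s (CInt.fiberMap i p s y) = i ((i ≫ p).fiberι s y) := by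
  rw [← Scheme.Hom.comp_apply, fiberMap_fiberι, Scheme.Hom.comp_apply]

theorem isClosed_asFiber (x : X)
    (h : IsClosed ({p.asFiber (i x)} : Set (p.fiber (p (i x))))) :
    IsClosed ({(i ≫ p).asFiber x} : Set ((i ≫ p).fiber ((i ≫ p) x))) := by
  let g : (i ≫ p).fiber (p (i x)) ⟶ p.fiber (p (i x)) := CInt.fiberMap i p (p (i x))
  have h1 := h.preimage g.continuous
  have h2 : (g ⁻¹' {p.asFiber (i x)} : Set ((i ≫ p).fiber (p (i x)))) ⊆ {(i ≫ p).asFiber x} := by
    intro y hy
    have hy' : g y = p.asFiber (i x) := hy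
    have h3 : p.fiberι (p (i x)) (g y) = i ((i ≫ p).fiberι (p (i x)) y) := fiberMap_apply i p _ y
    rw [hy', Scheme.Hom.fiberι_asFiber] at h3
    have h4 := i.isEmbedding.injective h3
    apply ((i ≫ p).fiberι (p (i x))).isEmbedding.injective
    rw [← h4]
    exact ((i ≫ p).fiberι_asFiber x).symm
  have h5 : (i ≫ p).asFiber x ∈ (g ⁻¹' {p.asFiber (i x)} : Set ((i ≫ p).fiber (p (i x)))) := by
    change g ((i ≫ p).asFiber x) = p.asFiber (i x)
    apply (p.fiberι (p (i x))).isEmbedding.injective
    rw [Scheme.Hom.fiberι_asFiber]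
    refine (fiberMap_apply i p _ _).trans ?_
    congr 1
    exact (i ≫ p).fiberι_asFiber x
  have h6 : (g ⁻¹' {p.asFiber (i x)} : Set ((i ≫ p).fiber (p (i x)))) = {(i ≫ p).asFiber x} :=
    Set.Subset.antisymm h2 (Set.singleton_subset_iff.2 h5)
  rw [h6] at h1
  exact h1

theorem subsingleton_stalk_push' (F : X.Modules) (y : P) (hy : y ∉ Set.range i) :
    Subsingleton (((Scheme.Modules.pushforward i).obj F).presheaf.stalk y) :=
  subsingleton_stalk_push i F y (by
    rw [i.isClosedEmbedding.isClosed_range.closure_eq]; exact hy)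

theorem isFlatOver_push (F : X.Modules) (h : FlatMod.IsFlatOver (i ≫ p) F) :
    FlatMod.IsFlatOver p ((Scheme.Modules.pushforward i).obj F) := by
  intro y
  by_cases hy : y ∈ Set.range i
  · obtain ⟨x, rfl⟩ := hy
    have hx := h x
    unfold FlatMod.IsFlatOverAt at hx ⊢
    let _ : Module (S.presheaf.stalk (p (i x))) (F.presheaf.stalk x) :=
      FlatMod.moduleStalkOver (i ≫ p) F x
    let _ := FlatMod.moduleStalkOver p ((Scheme.Modules.pushforward i).obj F) (i x)
    have hb := pushStalk_bijective i i.isEmbedding.isInducing F x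
    let e : ((Scheme.Modules.pushforward i).obj F).presheaf.stalk (i x) ≃+ F.presheaf.stalk x :=
      AddEquiv.ofBijective (pushStalk i F x).toAddMonoidHom hb
    let e' : ((Scheme.Modules.pushforward i).obj F).presheaf.stalk (i x)
        ≃ₗ[S.presheaf.stalk (p (i x))] F.presheaf.stalk x :=
      { e with
        map_smul' := fun r m => by
          have h1 : ((i ≫ p).stalkMap x).hom r = (i.stalkMap x).hom ((p.stalkMap (i x)).hom r) := by
            rw [Scheme.Hom.stalkMap_comp]
            rfl
          have h2 : pushStalk i F x ((p.stalkMap (i x)).hom r • m) =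
              (i.stalkMap x).hom ((p.stalkMap (i x)).hom r) • pushStalk i F x m :=
            (pushStalk i F x).map_smulₛₗ _ m
          rw [← h1] at h2
          exact h2 }
    have hx' : Module.Flat (S.presheaf.stalk (p (i x))) (F.presheaf.stalk x) := hx
    exact Module.Flat.of_linearEquiv e'
  · have := subsingleton_stalk_push' i F y hy
    unfold FlatMod.IsFlatOverAt
    let _ := FlatMod.moduleStalkOver p ((Scheme.Modules.pushforward i).obj F) y
    exact inferInstance

/-- The fibre cohomology hypothesis of S3382 for `f : X → S` and `F`. -/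
def Hyp (f : X ⟶ S) (F : X.Modules) (n : ℕ) : Prop :=
  ∀ x : X, IsClosed ({f.asFiber x} : Set ↥(f.fiber (f.base x))) →
    Subsingleton (LocCoh.H (IsLocalRing.maximalIdeal ↑(CInt.fiberStalk f x)) n
      ↑(((Scheme.Modules.pullback (f.fiberι (f.base x))).obj F).presheaf.stalk (f.asFiber x)))

theorem hyp_push [IsLocallyNoetherian X] [IsLocallyNoetherian P] (F : X.Modules) (n : ℕ)
    (h : Hyp (i ≫ p) F n) : Hyp p ((Scheme.Modules.pushforward i).obj F) n := by
  intro y hy
  rw [H_fiberStalk_iff]
  by_cases hyr : y ∈ Set.range i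
  · obtain ⟨x, rfl⟩ := hyr
    rw [H_red_push_iff, ← H_fiberStalk_iff]
    exact h x (isClosed_asFiber i p x hy)
  · have := subsingleton_stalk_push' i F y hyr
    have : Subsingleton (Red p ((Scheme.Modules.pushforward i).obj F) y) :=
      (Submodule.Quotient.mk_surjective _).subsingleton
    exact subsingleton_H_of_subsingleton _ n

end Groth.Agent.Sga2lef.H24.ClosedHyp
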