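import Groth.Agent.Sga2.LCRes
import Groth.Agent.Sga2.LCSurj
import Groth.Agent.Ega4dB.FiberDepth
import Groth.Agent.CycB.PushStalk

/-!
# Local cohomology of fibre modules, and closed immersions

* `subsingleton_H_iff`: vanishing of `H^n_𝔪` is invariant under semilinear isomorphisms along
  surjections of Noetherian local rings;
* `H_stalk_fiber_iff`, `H_fiberStalk_iff`: `H^n_𝔪` of the stalk of the fibre module is `H^n_𝔪` of
  `F_x / 𝔪_s F_x` over `O_{X,x}`;
* `H_red_push_iff`: compatibility with closed immersions.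
-/

set_option autoImplicit false
universe u v w

open CategoryTheory CategoryTheory.Limits AlgebraicGeometry TopologicalSpace IsLocalRing

namespace Groth.Agent.Sga2lef.H24.FibH

open Groth.Agent.Ega4dB.FiberDepth Groth.Agent.CycB.PushStalk

section Algebra

variable {R R' : Type u} [CommRing R] [CommRing R'] {N N' : Type u}
  [AddCommGroup N] [Module R N] [AddCommGroup N'] [Module R' N']

/-- Vanishing of local cohomology at the maximal ideal is invariant under semilinear isomorphisms along
surjective ring maps. -/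
theorem subsingleton_H_iff [IsNoetherianRing R] [IsNoetherianRing R'] [IsLocalRing R] [IsLocalRing R']
    (φ : R →+* R') (hφ : Function.Surjective φ) (e : N ≃+ N') (he : ∀ r n, e (r • n) = φ r • e n)
    (i : ℕ) : Subsingleton (LocCoh.H (maximalIdeal R) i N) ↔
      Subsingleton (LocCoh.H (maximalIdeal R') i N') := by
  let _ : Algebra R R' := φ.toAlgebra
  let _ : Module R N' := Module.compHom N' φ
  have : IsScalarTower R R' N' := IsScalarTower.of_algebraMap_smul fun _ _ => rfl
  have h : (maximalIdeal R).map (algebraMap R R') = maximalIdeal R' := by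
    have : IsLocalHom φ := IsLocalHom.of_surjective φ hφ
    apply le_antisymm
    · exact IsLocalRing.map_maximalIdeal_le φ
    · intro r hr
      obtain ⟨s, rfl⟩ := hφ r
      refine Ideal.mem_map_of_mem φ ?_
      rw [mem_maximalIdeal, mem_nonunits_iff] at hr ⊢
      exact fun h => hr (h.map φ)
  obtain ⟨e1, -⟩ := Groth.Agent.Sga2.LCRes.exists_equiv R R' (maximalIdeal R) (maximalIdeal R') h i N'
  let e0 : N ≃ₗ[R] N' := { e with map_smul' := fun r n => he r n }
  have e2 := Groth.Agent.Sga2.LCSurj.hCongr (maximalIdeal R) i e0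
  exact (e2.toEquiv.trans e1.toEquiv).subsingleton_congr

theorem subsingleton_H_of_subsingleton (I : Ideal R) (i : ℕ) [Subsingleton N] :
    Subsingleton (LocCoh.H I i N) := by
  have h : IsZero (ModuleCat.of R N) := ModuleCat.isZero_of_subsingleton _
  exact ModuleCat.subsingleton_of_isZero ((localCohomology I i).map_isZero h)

/-- A semilinear isomorphism induces one on the quotients by `I` and its extension. -/
theorem exists_quot (φ : R →+* R') (e : N ≃+ N') (he : ∀ r n, e (r • n) = φ r • e n) (I : Ideal R)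
    (I' : Ideal R') (hI : I' = I.map φ) :
    ∃ e' : (N ⧸ (I • (⊤ : Submodule R N))) ≃+ (N' ⧸ (I' • (⊤ : Submodule R' N'))),
      ∀ (r : R) (n : N ⧸ (I • (⊤ : Submodule R N))), e' (r • n) = φ r • e' n := by
  subst hI
  let _ : Algebra R R' := φ.toAlgebra
  let _ : Module R N' := Module.compHom N' φ
  have : IsScalarTower R R' N' := IsScalarTower.of_algebraMap_smul fun _ _ => rfl
  let e0 : N ≃ₗ[R] N' := { e with map_smul' := fun r n => he r n }
  have h1 : (I • (⊤ : Submodule R N)).map (e0 : N →ₗ[R] N') =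
      ((I.map φ • (⊤ : Submodule R' N')).restrictScalars R) := by
    rw [Submodule.map_smul'', Submodule.map_top, LinearEquiv.range]
    exact (Ideal.smul_restrictScalars (R := R) (S := R') I (⊤ : Submodule R' N')).symm
  let e1 := Submodule.Quotient.equiv _ _ e0 h1
  let e2 := Submodule.Quotient.restrictScalarsEquiv R (I.map φ • (⊤ : Submodule R' N'))
  refine ⟨(e1.trans e2).toAddEquiv, fun r n => ?_⟩
  exact (e1.trans e2).map_smul r n

end Algebra

section Scheme

variable {X P S : Scheme.{u}}

/-- `F_x / 𝔪_{f x} F_x`, as a module over `O_{X,x}`. -/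
abbrev Red (f : X ⟶ S) (F : X.Modules) (x : X) : Type u :=
  F.presheaf.stalk x ⧸ (mIdeal f x • (⊤ : Submodule (X.presheaf.stalk x) (F.presheaf.stalk x)))

theorem H_stalk_fiber_iff (f : X ⟶ S) [IsLocallyNoetherian X] (F : X.Modules) (s : S) (z : f.fiber s)
    (n : ℕ) :
    Subsingleton (LocCoh.H (maximalIdeal ↑((f.fiber s).presheaf.stalk z)) n
      ↑(((Scheme.Modules.pullback (f.fiberι s)).obj F).presheaf.stalk z)) ↔
    Subsingleton (LocCoh.H (maximalIdeal ↑(X.presheaf.stalk (f.fiberι s z))) n
      (Red f F (f.fiberι s z))) := by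
  let := Groth.Agent.Fdesc.PullbackStalk.stalkAlg (f.fiberι s) z
  let := FlatMod.moduleStalkOver (f.fiberι s) ((Scheme.Modules.pullback (f.fiberι s)).obj F) z
  have := Groth.Agent.Fdesc.PullbackStalk.isScalarTower (f.fiberι s)
    ((Scheme.Modules.pullback (f.fiberι s)).obj F) z
  have hbc := Groth.Agent.Fdesc.PullbackStalk.isBaseChange_can (f.fiberι s) F z
  have hsurj : Function.Surjective
      (algebraMap (X.presheaf.stalk (f.fiberι s z)) ((f.fiber s).presheaf.stalk z)) :=
    CycB.FiberKer.stalkMap_fiberι_surjective f s z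
  obtain ⟨h1, h2⟩ := exists_equiv_of_isBaseChange hsurj hbc
  have h3 : RingHom.ker (algebraMap (X.presheaf.stalk (f.fiberι s z)) ((f.fiber s).presheaf.stalk z)) =
      mIdeal f (f.fiberι s z) := CycB.FiberKer.ker_stalkMap_fiberι f s z
  rw [h3] at h2
  let e := (Submodule.quotEquivOfEq _ _ h2.symm).trans
    (LinearMap.quotKerEquivOfSurjective _ h1)
  have hN : IsNoetherianRing ((f.fiber s).presheaf.stalk z) :=
    isNoetherianRing_of_surjective _ _ _ hsurj
  refine (subsingleton_H_iff (algebraMap (X.presheaf.stalk (f.fiberι s z))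
    ((f.fiber s).presheaf.stalk z)) hsurj e.toAddEquiv ?_ n).symm
  intro r n
  change e (r • n) = _
  rw [e.map_smul]
  exact (algebraMap_smul ((f.fiber s).presheaf.stalk z) r (e n)).symm

theorem H_fiberStalk_iff (f : X ⟶ S) [IsLocallyNoetherian X] (F : X.Modules) (x : X) (n : ℕ) :
    Subsingleton (LocCoh.H (maximalIdeal ↑(CInt.fiberStalk f x)) n
      ↑(((Scheme.Modules.pullback (f.fiberι (f.base x))).obj F).presheaf.stalk (f.asFiber x))) ↔
    Subsingleton (LocCoh.H (maximalIdeal ↑(X.presheaf.stalk x)) n (Red f F x)) := by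
  have h := H_stalk_fiber_iff f F (f x) (f.asFiber x) n
  rw [f.fiberι_asFiber] at h
  exact h

variable (i : X ⟶ P) [IsClosedImmersion i] (p : P ⟶ S)

omit [IsClosedImmersion i] in
theorem mIdeal_comp (x : X) :
    mIdeal (i ≫ p) x = (mIdeal p (i x)).map (i.stalkMap x).hom := by
  have h : (maximalIdeal (S.presheaf.stalk ((i ≫ p) x))).map ((i ≫ p).stalkMap x).hom =
      (maximalIdeal (S.presheaf.stalk (p (i x)))).map
        ((i.stalkMap x).hom.comp (p.stalkMap (i x)).hom) := by
    rw [Scheme.Hom.stalkMap_comp]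
    rfl
  exact h.trans (Ideal.map_map _ _).symm

theorem H_red_push_iff [IsLocallyNoetherian X] [IsLocallyNoetherian P] (F : X.Modules) (x : X) (n : ℕ) :
    Subsingleton (LocCoh.H (maximalIdeal ↑(P.presheaf.stalk (i x))) n
      (Red p ((Scheme.Modules.pushforward i).obj F) (i x))) ↔
    Subsingleton (LocCoh.H (maximalIdeal ↑(X.presheaf.stalk x)) n (Red (i ≫ p) F x)) := by
  have hb := pushStalk_bijective i i.isEmbedding.isInducing F x
  let e : ((Scheme.Modules.pushforward i).obj F).presheaf.stalk (i x) ≃+ F.presheaf.stalk x :=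
    AddEquiv.ofBijective (pushStalk i F x).toAddMonoidHom hb
  obtain ⟨e', he'⟩ := exists_quot (i.stalkMap x).hom e (fun r n => (pushStalk i F x).map_smulₛₗ r n)
    (mIdeal p (i x)) (mIdeal (i ≫ p) x) (mIdeal_comp i p x)
  exact subsingleton_H_iff (i.stalkMap x).hom (i.stalkMap_surjective x) e' he' n

end Scheme

end Groth.Agent.Sga2lef.H24.FibH
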